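import Cfsg.Agent.H784.Q.Defs

/-! # S5176, section 5.2: two commuting quaternion groups and an element swapping (helper745) -/
set_option autoImplicit false

open Cfsg Cfsg.FusionSystem Cfsg.Agent.H752 Cfsg.Agent.H784.SF Cfsg.Agent.H784.Q

universe u

namespace Cfsg.Agent.H745.Q

/-- The Sylow group of case (A8): `S = (R * K)⟨d⟩`, `R = ⟨a, b⟩`, `K = ⟨k, w⟩` quaternion of the same order with the
same center `⟨z⟩`, `d` centralizes `a` and `k`, and `d⁻¹ b d = b a`, `d⁻¹ w d = w k`. Symmetric in `R` and `K`. -/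
structure TQ {Ω : Type u} [Group Ω] (S R : Subgroup Ω) (a b r : Ω) (K : Subgroup Ω) (k w c : Ω) (z d : Ω) (m : ℕ) :
    Prop where
  qR : QR R a b z r m
  qK : QR K k w z c m
  RS : R ≤ S
  KS : K ≤ S
  comm : ∀ x ∈ R, ∀ y ∈ K, x * y = y * x
  dS : d ∈ S
  da : d * a = a * d
  dk : d * k = k * d
  bd : d⁻¹ * b * d = b * a
  wd : d⁻¹ * w * d = w * k
  gen : ∀ s ∈ S, ∃ x ∈ R, ∃ y ∈ K, s = x * y ∨ s = x * y * d

theorem TQ.symm {Ω : Type u} [Group Ω] {S R : Subgroup Ω} {a b r : Ω} {K : Subgroup Ω} {k w c : Ω} {z d : Ω} {m : ℕ}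
    (h : TQ S R a b r K k w c z d m) : TQ S K k w c R a b r z d m :=
  ⟨h.qK, h.qR, h.KS, h.RS, fun x hx y hy => (h.comm y hy x hx).symm, h.dS, h.dk, h.da, h.wd, h.bd, fun s hs => by
    obtain ⟨x, hx, y, hy, h1⟩ := h.gen s hs
    exact ⟨y, hy, x, hx, by rwa [← h.comm x hx y hy]⟩⟩

end Cfsg.Agent.H745.Q
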