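import Cfsg.Agent.H745.Q.Quat
import Cfsg.Agent.H745.Q.TQDef

/-! # S5176, section 5.2: computations in `S = (R * K)⟨d⟩` (helper745) -/
set_option autoImplicit false

open Cfsg Cfsg.FusionSystem Cfsg.Agent.H752 Cfsg.Agent.H784.SF Cfsg.Agent.H784.Q

universe u

namespace Cfsg.Agent.H745.Q

variable {Ω : Type u} [Group Ω]

/-- equality up to `z` -/
def Eqz (z x y : Ω) : Prop := y = x ∨ y = x * z

namespace Eqz

variable {z : Ω}

theorem refl (x : Ω) : Eqz z x x := Or.inl rfl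

theorem symm (zz : z * z = 1) {x y : Ω} (h : Eqz z x y) : Eqz z y x := by
  rcases h with rfl | rfl
  · exact refl _
  · right; rw [mul_assoc, zz, mul_one]

theorem trans (zz : z * z = 1) {x y t : Ω} (h : Eqz z x y) (h' : Eqz z y t) : Eqz z x t := by
  rcases h with rfl | rfl
  · exact h'
  · rcases h' with rfl | rfl
    · exact Or.inr rfl
    · left; rw [mul_assoc, zz, mul_one]

theorem mul (zz : z * z = 1) {x y x' y' : Ω} (hx' : z * x' = x' * z) (h : Eqz z x y) (h' : Eqz z x' y') :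
    Eqz z (x * x') (y * y') := by
  rcases h with rfl | rfl
  · rcases h' with rfl | rfl
    · exact refl _
    · right; rw [mul_assoc]
  · rcases h' with rfl | rfl
    · right; rw [mul_assoc, hx', mul_assoc]
    · left; rw [mul_assoc, ← mul_assoc z, hx', mul_assoc, zz, mul_one]

theorem conj {x y s : Ω} (hs : z * s = s * z) (h : Eqz z x y) : Eqz z (s * x * s⁻¹) (s * y * s⁻¹) := by
  rcases h with rfl | rfl
  · exact refl _
  · right
    have h1 : z * s⁻¹ = s⁻¹ * z := by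
      rw [eq_inv_mul_iff_mul_eq, ← mul_assoc, ← hs, mul_inv_cancel_right]
    calc s * (x * z) * s⁻¹ = s * x * (z * s⁻¹) := by group
      _ = s * x * s⁻¹ * z := by rw [h1]; group

theorem inv (zz : z * z = 1) {x y : Ω} (hx : z * x = x * z) (h : Eqz z x y) : Eqz z x⁻¹ y⁻¹ := by
  rcases h with rfl | rfl
  · exact refl _
  · right
    rw [mul_inv_rev, inv_eq_of_mul_eq_one_right zz, eq_inv_mul_iff_mul_eq, ← mul_assoc, ← hx, mul_inv_cancel_right]

theorem map {X : Subgroup Ω} {f : Ω → Ω} (hf : OddAut X f) (hz : z ∈ X) (hfz : f z = z) {x y : Ω} (hx : x ∈ X)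
    (h : Eqz z x y) : Eqz z (f x) (f y) := by
  rcases h with rfl | rfl
  · exact refl _
  · right; rw [hf.mul x hx z hz, hfz]

end Eqz

variable {R X : Subgroup Ω} {a b z r : Ω} {m : ℕ}

/-! ## In the quaternion group -/

theorem QR.zpow_inv_comm (q : QR R a b z r m) {x t : Ω} (hx : x ∈ R) (hxA : x ∉ Subgroup.zpowers a)
    (ht : t ∈ Subgroup.zpowers a) : x * t = t⁻¹ * x := by
  obtain ⟨n, rfl⟩ := ht
  exact q.out_inv hx hxA n

theorem QR.zpowers_comm {s t : Ω} (hs : s ∈ Subgroup.zpowers a) (ht : t ∈ Subgroup.zpowers a) : s * t = t * s := by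
  obtain ⟨i, rfl⟩ := hs
  obtain ⟨j, rfl⟩ := ht
  exact (Commute.refl a).zpow_zpow i j

theorem QR.rA (q : QR R a b z r m) : r ∈ Subgroup.zpowers a := by
  rw [q.hr]; exact Subgroup.npow_mem_zpowers a _

theorem QR.zA (q : QR R a b z r m) : z ∈ Subgroup.zpowers a := by
  rw [q.hz]; exact Subgroup.npow_mem_zpowers a _

theorem QR.zr (q : QR R a b z r m) : z ∈ Subgroup.zpowers r := ⟨2, by
  change r ^ (2 : ℤ) = z
  rw [zpow_two, q.rr]⟩

theorem QR.mem_r (q : QR R a b z r m) {x : Ω} (hx : x ∈ Subgroup.zpowers r) : Eqz z 1 x ∨ Eqz z r x := by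
  obtain ⟨n, rfl⟩ := hx
  change Eqz z 1 (r ^ n) ∨ Eqz z r (r ^ n)
  have h2 : r ^ (2 : ℤ) = z := by rw [zpow_two, q.rr]
  have hz : ∀ l : ℤ, z ^ l = 1 ∨ z ^ l = z := by
    intro l
    have h3 : z ^ (2 : ℤ) = 1 := by rw [zpow_two, q.zz]
    rcases Int.even_or_odd' l with ⟨j, rfl | rfl⟩
    · left; rw [zpow_mul, h3, one_zpow]
    · right; rw [zpow_add, zpow_mul, h3, one_zpow, one_mul, zpow_one]
  rcases Int.even_or_odd' n with ⟨l, rfl | rfl⟩
  · left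
    rw [zpow_mul, h2]
    rcases hz l with h | h
    · exact Or.inl h
    · exact Or.inr (by rw [h, one_mul])
  · right
    rw [add_comm, zpow_add, zpow_mul, h2, zpow_one]
    rcases hz l with h | h
    · exact Or.inl (by rw [h, mul_one])
    · exact Or.inr (by rw [h])

theorem QR.rzr (q : QR R a b z r m) {x : Ω} (hx : x ∈ Subgroup.zpowers r) : x * x = 1 ∨ x * x = z := by
  have hrz := q.commz q.rR
  rcases QR.mem_r q hx with (rfl | rfl) | (rfl | rfl)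
  · left; rw [mul_one]
  · left; rw [one_mul, q.zz]
  · right; exact q.rr
  · right
    rw [mul_assoc, ← mul_assoc z, hrz, ← mul_assoc, ← mul_assoc, q.rr, mul_assoc, q.zz, mul_one]

theorem QR.pow_four_of_r (q : QR R a b z r m) {x : Ω} (hx : x ∈ Subgroup.zpowers r) : x ^ (4 : ℕ) = 1 := by
  have h1 : x ^ (4 : ℕ) = (x * x) * (x * x) := by rw [← pow_two, ← pow_two, ← pow_mul]
  rw [h1]
  rcases QR.rzr q hx with h6 | h6
  · rw [h6, mul_one]
  · rw [h6, q.zz]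

/-- `⟨a⟩` is normal in `R`. -/
theorem QR.A_conj (q : QR R a b z r m) {g x : Ω} (hg : g ∈ R) (hx : x ∈ Subgroup.zpowers a) :
    g * x * g⁻¹ ∈ Subgroup.zpowers a := by
  by_cases hgA : g ∈ Subgroup.zpowers a
  · exact mul_mem (mul_mem hgA hx) (inv_mem hgA)
  · rw [QR.zpow_inv_comm q hg hgA hx, mul_inv_cancel_right]
    exact inv_mem hx

theorem QR.A_conj' (q : QR R a b z r m) {g x : Ω} (hg : g ∈ R) (hx : g * x * g⁻¹ ∈ Subgroup.zpowers a) :
    x ∈ Subgroup.zpowers a := by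
  have h1 := QR.A_conj q (inv_mem hg) hx
  simpa [mul_assoc] using h1

/-- elements of order four or less outside of... : commuting with `r` -/
theorem QR.mem_A_of_comm (q : QR R a b z r m) {g : Ω} (hg : g ∈ R) (h : g * r = r * g) : g ∈ Subgroup.zpowers a := by
  by_contra hgA
  rw [QR.zpow_inv_comm q hg hgA (QR.rA q)] at h
  have h1 : r⁻¹ = r := mul_right_cancel h
  have h2 : r * r = 1 := by rw [← h1, inv_mul_eq_one, h1]
  rw [q.rr] at h2
  exact q.z_ne h2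

theorem Q8.zX (q : QR R a b z r m) (h : Q8 R a r X) : z ∈ X := by
  rw [← q.rr]; exact mul_mem h.rX h.rX

theorem Q8.sq (q : QR R a b z r m) (h : Q8 R a r X) {x : Ω} (hx : x ∈ X) : x * x = 1 ∨ x * x = z := by
  by_cases hA : x ∈ Subgroup.zpowers a
  · exact QR.rzr q (h.cyc x hx hA)
  · right; exact q.sq_out (h.le hx) hA

theorem Q8.inv_eqz (q : QR R a b z r m) (h : Q8 R a r X) {x : Ω} (hx : x ∈ X) : Eqz z x x⁻¹ := by
  rcases Q8.sq q h hx with h1 | h1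
  · left; exact inv_eq_of_mul_eq_one_right h1
  · right
    rw [inv_eq_iff_mul_eq_one, ← mul_assoc, h1, q.zz]

theorem Q8.out_out (q : QR R a b z r m) (h : Q8 R a r X) {x y : Ω} (hx : x ∈ X) (hxA : x ∉ Subgroup.zpowers a)
    (hy : y ∈ X) (hyA : y ∉ Subgroup.zpowers a) : Eqz z x y ∨ Eqz z (x * r) y := by
  have h1 := h.cyc _ (mul_mem (inv_mem hx) hy) (QR.out_mul q (h.le hx) hxA (h.le hy) hyA)
  rcases QR.mem_r q h1 with (h2 | h2) | (h2 | h2)
  · left; left; rwa [inv_mul_eq_one, eq_comm] at h2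
  · left; right; rw [one_mul, inv_mul_eq_iff_eq_mul] at h2; exact h2
  · right; left; rw [inv_mul_eq_iff_eq_mul] at h2; exact h2
  · right; right; rw [inv_mul_eq_iff_eq_mul, ← mul_assoc] at h2; exact h2

/-- `X / ⟨z⟩` is abelian. -/
theorem Q8.conj_eqz (q : QR R a b z r m) (h : Q8 R a r X) {x y : Ω} (hx : x ∈ X) (hy : y ∈ X) :
    Eqz z x (y * x * y⁻¹) := by
  -- `t x t⁻¹ ≈ x` for `t ∈ ⟨a⟩`, `x ∉ ⟨a⟩`
  have key : ∀ t ∈ X, t ∈ Subgroup.zpowers a → ∀ x ∈ X, x ∉ Subgroup.zpowers a → Eqz z x (t * x * t⁻¹) := by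
    intro t ht htA x hx hxA
    have h1 : t * x = x * t⁻¹ := by
      rw [QR.zpow_inv_comm q (h.le hx) hxA (inv_mem htA), inv_inv]
    rw [h1, mul_assoc, ← mul_inv_rev]
    rcases Q8.sq q h ht with h2 | h2
    · left; rw [h2, inv_one, mul_one]
    · right; rw [h2, q.zinv]
  by_cases hxA : x ∈ Subgroup.zpowers a
  · by_cases hyA : y ∈ Subgroup.zpowers a
    · left; rw [QR.zpowers_comm hyA hxA, mul_inv_cancel_right]
    · rw [QR.zpow_inv_comm q (h.le hy) hyA hxA, mul_inv_cancel_right]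
      exact Q8.inv_eqz q h hx
  · by_cases hyA : y ∈ Subgroup.zpowers a
    · exact key y hy hyA x hx hxA
    · have h1 := QR.out_mul q (h.le hx) hxA (h.le hy) hyA
      have h2 := key _ (mul_mem (inv_mem hx) hy) h1 x hx hxA
      have h3 := Eqz.conj (s := x) (q.commz (h.le hx)) h2
      have h4 : x * x * x⁻¹ = x := by group
      have h5 : x * (x⁻¹ * y * x * (x⁻¹ * y)⁻¹) * x⁻¹ = y * x * y⁻¹ := by group
      rwa [h4, h5] at h3

/-- an element of `R` fixing the class of an element of `X` outside `⟨a⟩` is in `X`. -/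
theorem Q8.mem_of_conj (q : QR R a b z r m) (h : Q8 R a r X) {x g : Ω} (hx : x ∈ X) (hxA : x ∉ Subgroup.zpowers a)
    (hg : g ∈ R) (hc : Eqz z x (g * x * g⁻¹)) : g ∈ X := by
  have key : ∀ t ∈ R, t ∈ Subgroup.zpowers a → Eqz z x (t * x * t⁻¹) → t ∈ X := by
    intro t ht htA h1
    have h2 : t * x = x * t⁻¹ := by
      rw [QR.zpow_inv_comm q (h.le hx) hxA (inv_mem htA), inv_inv]
    rw [h2, mul_assoc, ← mul_inv_rev] at h1
    have h3 : (t * t) * (t * t) = 1 := by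
      rcases h1 with h1 | h1
      · rw [mul_eq_left, inv_eq_one] at h1
        rw [h1, mul_one]
      · have h4 := mul_left_cancel h1
        rw [inv_eq_iff_eq_inv, q.zinv] at h4
        rw [h4, q.zz]
    have h4 : t ^ 4 = 1 := by
      rw [← h3, ← pow_two, ← pow_two, ← pow_mul]
    have h5 := QR.mem_zpowers_r q htA h4
    obtain ⟨n, rfl⟩ := h5
    exact zpow_mem h.rX n
  by_cases hgA : g ∈ Subgroup.zpowers a
  · exact key g hg hgA hc
  · have h1 := QR.out_mul q (h.le hx) hxA hg hgA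
    have h2 := Eqz.conj (s := x⁻¹) (q.commz (inv_mem (h.le hx))) hc
    have h3 : x⁻¹ * x * x⁻¹⁻¹ = x := by group
    have h4 : x⁻¹ * (g * x * g⁻¹) * x⁻¹⁻¹ = (x⁻¹ * g) * x * (x⁻¹ * g)⁻¹ := by group
    rw [h3, h4] at h2
    have h5 := key _ (mul_mem (inv_mem (h.le hx)) hg) h1 h2
    have h6 := mul_mem hx h5
    rwa [mul_inv_cancel_left] at h6

/-- an element of `N_R(X) ∖ X` swaps the two classes outside `⟨a⟩`. -/
theorem Q8.swap (q : QR R a b z r m) (h : Q8 R a r X) {x g : Ω} (hx : x ∈ X) (hxA : x ∉ Subgroup.zpowers a)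
    (hg : g ∈ R) (hgX : g ∉ X) (hgn : g * x * g⁻¹ ∈ X) : Eqz z (x * r) (g * x * g⁻¹) :=
  (Q8.out_out q h hx hxA hgn fun h1 => hxA (QR.A_conj' q hg h1)).resolve_left
    fun h1 => hgX (Q8.mem_of_conj q h hx hxA hg h1)

theorem Q8.diff (q : QR R a b z r m) (h : Q8 R a r X) {g g' : Ω}
    (hg : g ∈ R) (hgX : g ∉ X) (hgn : ∀ x ∈ X, g * x * g⁻¹ ∈ X)
    (hg' : g' ∈ R) (hgX' : g' ∉ X) (hgn' : ∀ x ∈ X, g' * x * g'⁻¹ ∈ X) : g⁻¹ * g' ∈ X := by
  obtain ⟨u, hu, huA⟩ := h.out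
  have h1 := Q8.swap q h hu huA hg hgX (hgn u hu)
  have h2 := Q8.swap q h hu huA hg' hgX' (hgn' u hu)
  refine Q8.mem_of_conj q h hu huA (mul_mem (inv_mem hg) hg') ?_
  have h3 := Eqz.conj (s := g⁻¹) (q.commz (inv_mem hg)) ((h1.symm q.zz).trans q.zz h2)
  have h4 : g⁻¹ * (g * u * g⁻¹) * g⁻¹⁻¹ = u := by group
  have h5 : g⁻¹ * (g' * u * g'⁻¹) * g⁻¹⁻¹ = g⁻¹ * g' * u * (g⁻¹ * g')⁻¹ := by group
  rwa [h4, h5] at h3

/-- `X = ⟨r⟩ ∪ u ⟨r⟩` -/
theorem Q8.cases (q : QR R a b z r m) (h : Q8 R a r X) {u : Ω} (hu : u ∈ X) (huA : u ∉ Subgroup.zpowers a) {x : Ω}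
    (hx : x ∈ X) : Eqz z 1 x ∨ Eqz z r x ∨ Eqz z u x ∨ Eqz z (u * r) x := by
  by_cases hA : x ∈ Subgroup.zpowers a
  · rcases QR.mem_r q (h.cyc x hx hA) with h1 | h1
    · exact Or.inl h1
    · exact Or.inr (Or.inl h1)
  · rcases Q8.out_out q h hu huA hx hA with h1 | h1
    · exact Or.inr (Or.inr (Or.inl h1))
    · exact Or.inr (Or.inr (Or.inr h1))

/-! ## In `S` -/

theorem QR.odd_pow (q : QR R a b z r m) (n : ℤ) (h : (a ^ (2 * n + 1)) ^ (4 : ℕ) = 1) : False := by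
  rw [← zpow_natCast, ← zpow_mul] at h
  have h1 := orderOf_dvd_iff_zpow_eq_one.mpr h
  rw [q.oa] at h1
  have hm := q.m3
  have h2 : ((2 ^ m : ℕ) : ℤ) = (2 ^ (m - 3) : ℤ) * 8 := by
    rw [show m = m - 3 + 3 from by omega]
    push_cast
    rw [pow_add]
    norm_num
  rw [h2] at h1
  have h3 : (8 : ℤ) ∣ (2 * n + 1) * ((4 : ℕ) : ℤ) := dvd_trans (dvd_mul_left _ _) h1
  push_cast at h3
  omega

namespace TQ

variable {S K : Subgroup Ω} {k w c d : Ω} (h : TQ S R a b r K k w c z d m)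
include h

theorem d_comm {x : Ω} (hx : x ∈ Subgroup.zpowers a) : d * x = x * d := by
  obtain ⟨n, rfl⟩ := hx
  exact (show Commute d a from h.da).zpow_right n

/-- conjugation by `d` on elements outside `⟨a⟩` -/
theorem d_out {x : Ω} (hx : x ∈ R) (hxA : x ∉ Subgroup.zpowers a) : d * x * d⁻¹ = x * a⁻¹ := by
  obtain ⟨i, rfl⟩ := h.qR.out_eq hx hxA
  have h1 : d * b = b * a⁻¹ * d := by
    have h2 : b * d = d * (b * a) := by rw [← h.bd]; group
    have h3 : d * b = b * d * a⁻¹ := by rw [h2]; group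
    rw [h3, mul_assoc, h.d_comm (inv_mem (Subgroup.mem_zpowers a)), ← mul_assoc]
  have h2 : d * a ^ i = a ^ i * d := h.d_comm (Subgroup.npow_mem_zpowers a i)
  have h3 : a⁻¹ * a ^ i = a ^ i * a⁻¹ :=
    QR.zpowers_comm (inv_mem (Subgroup.mem_zpowers a)) (Subgroup.npow_mem_zpowers a i)
  calc d * (b * a ^ i) * d⁻¹ = (d * b) * a ^ i * d⁻¹ := by group
    _ = b * (a⁻¹ * (d * a ^ i)) * d⁻¹ := by rw [h1]; group
    _ = b * ((a⁻¹ * a ^ i) * d) * d⁻¹ := by rw [h2]; group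
    _ = b * a ^ i * a⁻¹ := by rw [h3]; group

theorem d_out' {x : Ω} (hx : x ∈ R) (hxA : x ∉ Subgroup.zpowers a) : d⁻¹ * x * d = x * a := by
  have hxa : x * a ∉ Subgroup.zpowers a := fun h1 => hxA (by
    simpa using mul_mem h1 (inv_mem (Subgroup.mem_zpowers a)))
  have h1 := h.d_out (mul_mem hx h.qR.aR) hxa
  rw [mul_inv_cancel_right] at h1
  calc d⁻¹ * x * d = d⁻¹ * (d * (x * a) * d⁻¹) * d := by rw [h1]
    _ = x * a := by group

theorem R_d {x : Ω} (hx : x ∈ R) : d * x * d⁻¹ ∈ R := by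
  by_cases hxA : x ∈ Subgroup.zpowers a
  · rw [h.d_comm hxA, mul_inv_cancel_right]; exact hx
  · rw [h.d_out hx hxA]; exact mul_mem hx (inv_mem h.qR.aR)

/-- `R` is normal in `S` -/
theorem R_conj {s x : Ω} (hs : s ∈ S) (hx : x ∈ R) : s * x * s⁻¹ ∈ R := by
  obtain ⟨ρ, hρ, κ, hκ, h1⟩ := h.gen s hs
  have key : ∀ y ∈ R, ρ * κ * y * (ρ * κ)⁻¹ ∈ R := by
    intro y hy
    have h2 : ρ * κ * y * (ρ * κ)⁻¹ = ρ * y * ρ⁻¹ := by
      rw [mul_assoc ρ, ← h.comm y hy κ hκ]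
      group
    rw [h2]
    exact mul_mem (mul_mem hρ hy) (inv_mem hρ)
  rcases h1 with rfl | rfl
  · exact key x hx
  · have h2 := key _ (h.R_d hx)
    have h3 : ρ * κ * d * x * (ρ * κ * d)⁻¹ = ρ * κ * (d * x * d⁻¹) * (ρ * κ)⁻¹ := by group
    rw [h3]
    exact h2

theorem z_comm {s : Ω} (hs : s ∈ S) : z * s = s * z := by
  obtain ⟨ρ, hρ, κ, hκ, h1⟩ := h.gen s hs
  have h2 : z * (ρ * κ) = ρ * κ * z := by
    rw [← mul_assoc, h.qR.commz hρ, mul_assoc, h.qK.commz hκ, mul_assoc]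
  rcases h1 with rfl | rfl
  · exact h2
  · rw [← mul_assoc, h2, mul_assoc, mul_assoc (ρ * κ), h.d_comm (QR.zA h.qR)]

theorem zS : z ∈ S := h.RS h.qR.zR

/-- An element normalizing a `Q8` of `R` is in `RK`. -/
theorem norm_q8 (hX : Q8 R a r X) {s : Ω} (hs : s ∈ S) (hn : ∀ x ∈ X, s * x * s⁻¹ ∈ X) :
    ∃ ρ ∈ R, ∃ κ ∈ K, s = ρ * κ ∧ ∀ x ∈ X, ρ * x * ρ⁻¹ ∈ X := by
  obtain ⟨ρ, hρ, κ, hκ, h1⟩ := h.gen s hs
  have q := h.qR
  have key : ∀ y ∈ R, ρ * κ * y * (ρ * κ)⁻¹ = ρ * y * ρ⁻¹ := by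
    intro y hy
    rw [mul_assoc ρ, ← h.comm y hy κ hκ]
    group
  rcases h1 with rfl | rfl
  · exact ⟨ρ, hρ, κ, hκ, rfl, fun x hx => by rw [← key x (hX.le hx)]; exact hn x hx⟩
  · exfalso
    obtain ⟨u, hu, huA⟩ := hX.out
    have h2 := hn u hu
    have h3 : ρ * κ * d * u * (ρ * κ * d)⁻¹ = ρ * κ * (d * u * d⁻¹) * (ρ * κ)⁻¹ := by group
    rw [h3, h.d_out (hX.le hu) huA, key _ (mul_mem (hX.le hu) (inv_mem q.aR))] at h2
    have ha := Subgroup.mem_zpowers a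
    -- an odd power of `a` is in `X`
    have h4 : ∃ n : ℤ, a ^ (2 * n + 1) ∈ X := by
      by_cases hρA : ρ ∈ Subgroup.zpowers a
      · have h5 : ρ * (u * a⁻¹) * ρ⁻¹ = u * (ρ⁻¹ * a⁻¹ * ρ⁻¹) := by
          have h6 : ρ * u = u * ρ⁻¹ := by
            rw [QR.zpow_inv_comm q (hX.le hu) huA (inv_mem hρA), inv_inv]
          rw [← mul_assoc, h6]; group
        rw [h5] at h2
        have h6 := mul_mem (inv_mem hu) h2
        rw [inv_mul_cancel_left] at h6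
        have h7 := inv_mem h6
        obtain ⟨n, rfl⟩ := hρA
        refine ⟨n, ?_⟩
        convert h7 using 1
        show a ^ (2 * n + 1) = ((a ^ n)⁻¹ * a⁻¹ * (a ^ n)⁻¹)⁻¹
        group
      · have h5 := QR.out_mul q (hX.le hu) huA hρ hρA
        obtain ⟨n, hn'⟩ := h5
        change a ^ n = u⁻¹ * ρ at hn'
        have h6 : ρ = u * a ^ n := by rw [hn']; group
        have h7 : ρ * (u * a⁻¹) * ρ⁻¹ = u * (u * (a ^ (2 * n + 1))⁻¹) * u⁻¹ := by
          rw [h6]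
          have h8 : a ^ n * u = u * (a ^ n)⁻¹ := by
            rw [QR.zpow_inv_comm q (hX.le hu) huA (inv_mem (zpow_mem ha n)), inv_inv]
          calc u * a ^ n * (u * a⁻¹) * (u * a ^ n)⁻¹ = u * (a ^ n * u) * a⁻¹ * (a ^ n)⁻¹ * u⁻¹ := by group
            _ = u * (u * (a ^ (2 * n + 1))⁻¹) * u⁻¹ := by
              rw [h8]
              have h9 : (a ^ n)⁻¹ * a⁻¹ * (a ^ n)⁻¹ = (a ^ (2 * n + 1))⁻¹ := by
                group
              rw [← h9]
              group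
        rw [h7] at h2
        have h8 := mul_mem (mul_mem (inv_mem hu) h2) hu
        have h9 : u⁻¹ * (u * (u * (a ^ (2 * n + 1))⁻¹) * u⁻¹) * u = u * (a ^ (2 * n + 1))⁻¹ := by group
        rw [h9] at h8
        have h10 := mul_mem (inv_mem hu) h8
        rw [inv_mul_cancel_left] at h10
        exact ⟨n, by simpa using inv_mem h10⟩
    obtain ⟨n, hn'⟩ := h4
    have h5 := hX.cyc _ hn' (zpow_mem ha _)
    refine QR.odd_pow q n ?_
    exact QR.pow_four_of_r q h5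

/-- An element centralizing `r` and an element of `R` outside `⟨a⟩` is in `K`. -/
theorem cent {s u : Ω} (hs : s ∈ S) (hr : s * r = r * s) (hu : u ∈ R) (huA : u ∉ Subgroup.zpowers a)
    (hsu : s * u = u * s) : s ∈ K := by
  obtain ⟨ρ, hρ, κ, hκ, h1⟩ := h.gen s hs
  have q := h.qR
  have key : ∀ y ∈ R, ρ * κ * y * (ρ * κ)⁻¹ = ρ * y * ρ⁻¹ := by
    intro y hy
    rw [mul_assoc ρ, ← h.comm y hy κ hκ]
    group
  have hr' : s * r * s⁻¹ = r := by rw [hr, mul_inv_cancel_right]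
  have hu' : s * u * s⁻¹ = u := by rw [hsu, mul_inv_cancel_right]
  rcases h1 with rfl | rfl
  · rw [key _ q.rR] at hr'
    rw [key _ hu] at hu'
    have h2 := QR.mem_A_of_comm q hρ (mul_inv_eq_iff_eq_mul.mp hr')
    have h3 : ρ * u = u * ρ := mul_inv_eq_iff_eq_mul.mp hu'
    rw [QR.zpow_inv_comm q hu huA h2] at h3
    have h4 : ρ = ρ⁻¹ := mul_right_cancel h3
    have h5 : ρ * ρ = 1 := by nth_rewrite 2 [h4]; exact mul_inv_cancel ρ
    by_cases h6 : ρ = 1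
    · rw [h6, one_mul]; exact hκ
    · rw [q.uniq hρ h5 h6]; exact mul_mem h.qK.zR hκ
  · exfalso
    have h3 : ∀ y, ρ * κ * d * y * (ρ * κ * d)⁻¹ = ρ * κ * (d * y * d⁻¹) * (ρ * κ)⁻¹ := fun y => by group
    rw [h3, h.d_comm (QR.rA q), mul_inv_cancel_right, key _ q.rR] at hr'
    rw [h3, h.d_out hu huA, key _ (mul_mem hu (inv_mem q.aR))] at hu'
    have hρA := QR.mem_A_of_comm q hρ (mul_inv_eq_iff_eq_mul.mp hr')
    have h5 : ρ * (u * a⁻¹) * ρ⁻¹ = u * (ρ⁻¹ * a⁻¹ * ρ⁻¹) := by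
      have h6 : ρ * u = u * ρ⁻¹ := by
        rw [QR.zpow_inv_comm q hu huA (inv_mem hρA), inv_inv]
      rw [← mul_assoc, h6]; group
    rw [h5, mul_eq_left] at hu'
    obtain ⟨n, rfl⟩ := hρA
    refine QR.odd_pow q n ?_
    have h6 : a ^ (2 * n + 1) = 1 := by
      rw [← inv_eq_one, ← hu']
      show (a ^ (2 * n + 1))⁻¹ = (a ^ n)⁻¹ * a⁻¹ * (a ^ n)⁻¹
      group
    rw [h6, one_pow]

theorem cent_q8 (hX : Q8 R a r X) {s : Ω} (hs : s ∈ S) (hc : ∀ x ∈ X, s * x = x * s) : s ∈ K := by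
  obtain ⟨u, hu, huA⟩ := hX.out
  exact h.cent hs (hc r hX.rX) (hX.le hu) huA (hc u hu)

theorem cent_R {s : Ω} (hs : s ∈ S) (hc : ∀ x ∈ R, s * x = x * s) : s ∈ K :=
  h.cent hs (hc r h.qR.rR) h.qR.bR h.qR.bA (hc b h.qR.bR)

end TQ

/-- `R` itself is not `Q8`. -/
theorem QR.not_q8 (q : QR R a b z r m) : ¬ Q8 R a r R := fun h => by
  have h1 := h.cyc a q.aR (Subgroup.mem_zpowers a)
  refine QR.odd_pow q 0 ?_
  rw [mul_zero, zero_add, zpow_one]
  exact QR.pow_four_of_r q h1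

end Cfsg.Agent.H745.Q
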