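import Cfsg.Agent.H745.Q.Gen
import Cfsg.Agent.H745.Q.TQ

/-! # S5176, section 5.2: odd order automorphisms in a fusion system on `S = (R * K)⟨d⟩` (helper745) -/
set_option autoImplicit false
set_option linter.unusedSectionVars false
set_option linter.unusedVariables false

open Cfsg Cfsg.FusionSystem Cfsg.Agent.H752 Cfsg.Agent.H784.SF Cfsg.Agent.H784.Q Cfsg.Agent.H802

universe u

namespace Cfsg.Agent.H745.Q

variable {Ω : Type u} [Group Ω]

/-! ## Automorphisms as functions -/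

/-- an automorphism of `Q` as a function on `Ω`. -/
noncomputable def un {Q : Subgroup Ω} (α : MulAut Q) : Ω → Ω := ex fun x => ((α x : Q) : Ω)

section un

variable {Q : Subgroup Ω} (α β : MulAut Q)

theorem un_apply {x : Ω} (hx : x ∈ Q) : un α x = (α ⟨x, hx⟩ : Q) := ex_apply _ hx

theorem un_mem {x : Ω} (hx : x ∈ Q) : un α x ∈ Q := by rw [un_apply α hx]; exact (α _).2

theorem un_mul {x : Ω} (hx : x ∈ Q) : un (α * β) x = un α (un β x) := by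
  rw [un_apply _ hx, un_apply β hx, un_apply α (β ⟨x, hx⟩).2]
  rfl

theorem un_inv_apply {x : Ω} (hx : x ∈ Q) : un α⁻¹ (un α x) = x := by
  rw [← un_mul _ _ hx, inv_mul_cancel, un_apply _ hx]
  rfl

theorem un_apply_inv {x : Ω} (hx : x ∈ Q) : un α (un α⁻¹ x) = x := by
  rw [← un_mul _ _ hx, mul_inv_cancel, un_apply _ hx]
  rfl

theorem un_hom {x y : Ω} (hx : x ∈ Q) (hy : y ∈ Q) : un α (x * y) = un α x * un α y := by
  rw [un_apply _ hx, un_apply _ hy, un_apply _ (mul_mem hx hy), ← Subgroup.coe_mul, ← map_mul]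
  rfl

theorem un_pow (n : ℕ) {x : Ω} (hx : x ∈ Q) : un (α ^ n) x = (un α)^[n] x := by
  induction n generalizing x with
  | zero => rw [pow_zero, un_apply _ hx]; rfl
  | succ n ih => rw [pow_succ, un_mul _ _ hx, ih (un_mem α hx), Function.iterate_succ_apply]

variable {α β}

theorem un_ext (h : ∀ x ∈ Q, un α x = un β x) : α = β := by
  apply MulEquiv.ext
  intro x
  apply Subtype.ext
  have := h x x.2
  rwa [un_apply _ x.2, un_apply _ x.2] at this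

theorem un_eq_one (h : ∀ x ∈ Q, un α x = x) : α = 1 :=
  un_ext fun x hx => by rw [h x hx, un_apply _ hx]; rfl

theorem un_oddAut [Finite Q] (h : Nat.Coprime (orderOf α) 2) : OddAut Q (un α) :=
  ⟨fun _ hx _ hy => un_hom α hx hy, fun _ hx => un_mem α hx,
    orderOf α, Nat.coprime_two_right.mp h, fun x hx => by
      rw [← un_pow _ _ hx, pow_orderOf_eq_one, un_apply _ hx]; rfl⟩

end un

variable {S : Subgroup Ω} [Finite S] {C : FusionSystem S} {R : Subgroup Ω} {a b z r : Ω} {m : ℕ}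
  {K : Subgroup Ω} {k w c d : Ω} {Q : Subgroup Ω}

theorem Aut.mp (hQ : Q ≤ S) {α : MulAut Q} (hα : α ∈ C.autGroup Q) : Mp C Q (un α) :=
  (mp_iff_autGroup hQ α).1 hα

/-- an odd order automorphism with `x⁻¹ α(x) ∈ R` is trivial, if `R ∩ Q` is invariant and not `Q8`. -/
theorem TQ.trivial_of_mod (h : TQ S R a b r K k w c z d m) (hS : IsPGroup 2 S) (hQS : Q ≤ S) {f : Ω → Ω}
    (hf : OddAut Q f) (hR : ∀ x ∈ Q, x ∈ R → f x ∈ R) (hfix : ∀ x ∈ Q, x ∈ R → f x = x)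
    (hm : ∀ x ∈ Q, x⁻¹ * f x ∈ R) : ∀ x ∈ Q, f x = x := by
  intro x hx
  have h1 : x⁻¹ * f x ∈ Q := mul_mem (inv_mem hx) (hf.maps x hx)
  exact hf.fix_of_mul (hS.to_le hQS) hx h1 (hfix _ h1 (hm x hx)) (by rw [mul_inv_cancel_left])

/-- Step 1: if `R ≰ Q` and `R ∩ Q` is not `Q8` then everything extends. -/
theorem TQ.step1 (h : TQ S R a b r K k w c z d m) (hS : IsPGroup 2 S) (hQa : C.IsFullyAutomized 2 Q)
    (hQr : C.IsReceptive Q) (hR : ∀ α ∈ C.autGroup Q, ∀ x ∈ Q, x ∈ R → un α x ∈ R) (hle : ¬ R ≤ Q)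
    (hn : ¬ Q8 R a r (R ⊓ Q)) {α : MulAut Q} (hα : α ∈ C.autGroup Q) : Extends C Q α := by
  have hQS := hQr.1
  have hfQ : Finite Q := finite_of_le hQS
  have hRn : Q ≤ Subgroup.normalizer (R : Set Ω) := by
    intro s hs
    rw [Subgroup.mem_normalizer_iff]
    intro x
    refine ⟨fun hx => h.R_conj (hQS hs) hx, fun hx => ?_⟩
    have h1 := h.R_conj (inv_mem (hQS hs)) hx
    simpa [mul_assoc] using h1
  have hlt : Q < Q ⊔ R := by
    refine lt_of_le_of_ne le_sup_left fun he => hle ?_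
    rw [he]; exact le_sup_right
  obtain ⟨g, hg, hgQ, hgn⟩ := H759.exists_mem_normalizer_not_mem hS (sup_le hQS h.RS) hlt
  obtain ⟨q, hq, t, ht, rfl⟩ := (H759.mem_sup_of_normalizes hRn).1 hg
  have htQ : t ∉ Q := fun h => hgQ (mul_mem hq h)
  have htn : t ∈ Subgroup.normalizer (Q : Set Ω) := by
    have h2 := mul_mem (inv_mem (Subgroup.le_normalizer hq)) hgn
    simpa [← mul_assoc] using h2
  refine extends_of_normal (T := R) hQa hQr (fun α hα x hx => ?_) (fun β hβ hc hm => ?_) (h.RS ht) htn htQ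
    (fun x hx => ?_) hα
  · have h1 := hR α hα x x.2 hx
    rwa [un_apply _ x.2] at h1
  · have hf := un_oddAut hc
    have hX : OddAut (R ⊓ Q) (un β) := hf.res inf_le_right fun x hx => ⟨hR β hβ x hx.2 hx.1, hf.maps x hx.2⟩
    have hfix := QR.fix_of_not_q8 h.qR inf_le_left hX hn
    refine un_eq_one (h.trivial_of_mod hS hQS hf (hR β hβ) (fun x hx hxR => hfix x ⟨hxR, hx⟩) fun x hx => ?_)
    have h1 := hm ⟨x, hx⟩
    rwa [un_apply _ hx]
  · have h1 := h.R_conj (inv_mem (hQS hx)) ht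
    have h2 := mul_mem h1 (inv_mem ht)
    rw [inv_inv] at h2
    have h3 : x⁻¹ * (t * x * t⁻¹) = x⁻¹ * t * x * t⁻¹ := by group
    rw [h3]
    exact h2

/-- `Q = (R ∩ Q) K` -/
theorem TQ.eq_sup (h : TQ S R a b r K k w c z d m) (hQS : Q ≤ S) (hX : Q8 R a r (R ⊓ Q)) (hK : K ≤ Q) :
    Q = (R ⊓ Q) ⊔ K := by
  refine le_antisymm (fun s hs => ?_) (sup_le inf_le_right hK)
  obtain ⟨ρ, hρ, κ, hκ, rfl, -⟩ := h.norm_q8 hX (hQS hs) fun x hx =>
    ⟨h.R_conj (hQS hs) hx.1, Q.mul_mem (Q.mul_mem hs hx.2) (Q.inv_mem hs)⟩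
  have h1 : ρ ∈ Q := by
    have := mul_mem hs (inv_mem (hK hκ))
    rwa [mul_inv_cancel_right] at this
  exact mul_mem (Subgroup.mem_sup_left ⟨hρ, h1⟩) (Subgroup.mem_sup_right hκ)

theorem TQ.fix_K (h : TQ S R a b r K k w c z d m) (hK : K ≤ Q) {f : Ω → Ω} (hf : OddAut Q f)
    (hinv : ∀ x ∈ Q, x ∈ K → f x ∈ K) : ∀ x ∈ K, f x = x :=
  QR.fix_of_not_q8 h.qK le_rfl (hf.res hK fun x hx => hinv x (hK hx) hx) (QR.not_q8 h.qK)

/-! ## More on `Q8` -/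

section Q8

variable {X : Subgroup Ω}

theorem Q8.induction (q : QR R a b z r m) (hX : Q8 R a r X) {u : Ω} (hu : u ∈ X) (huA : u ∉ Subgroup.zpowers a)
    (E : Subgroup Ω) (hr : r ∈ E) (huE : u ∈ E) : X ≤ E := by
  have hz : z ∈ E := by rw [← q.rr]; exact mul_mem hr hr
  intro x hx
  rcases Q8.cases q hX hu huA hx with (h | h) | (h | h) | (h | h) | (h | h) <;> rw [h]
  · exact one_mem E
  · exact mul_mem (one_mem E) hz
  · exact hr
  · exact mul_mem hr hz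
  · exact huE
  · exact mul_mem huE hz
  · exact mul_mem huE hr
  · exact mul_mem (mul_mem huE hr) hz

/-- an odd order automorphism of `Q8` with `f r ∈ ⟨a⟩` is trivial -/
theorem Q8.fix_of_r (q : QR R a b z r m) (hX : Q8 R a r X) {f : Ω → Ω} (hf : OddAut X f)
    (hr : f r ∈ Subgroup.zpowers a) : ∀ x ∈ X, f x = x :=
  QR.fix_of_maps q hX.le hf fun x hx hxa => by
    obtain ⟨n, rfl⟩ := hX.cyc x hx hxa
    show f (r ^ n) ∈ _
    rw [hf.zpow hX.rX]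
    exact zpow_mem hr n

theorem Q8.fz (q : QR R a b z r m) (hX : Q8 R a r X) {f : Ω → Ω} (hf : OddAut X f) : f z = z := by
  have hzX := Q8.zX q hX
  refine q.uniq (hX.le (hf.maps z hzX)) (by rw [← hf.mul z hzX z hzX, q.zz, hf.one]) fun h => ?_
  rw [← hf.one] at h
  exact q.z_ne (hf.inj hzX (one_mem X) h)

/-- an endomorphism of `Q8` trivial modulo `z` is inner -/
theorem Q8.inner (q : QR R a b z r m) (hX : Q8 R a r X) {f : Ω → Ω}
    (hmul : ∀ x ∈ X, ∀ y ∈ X, f (x * y) = f x * f y) (h : ∀ x ∈ X, Eqz z x (f x)) :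
    ∃ y ∈ X, ∀ x ∈ X, f x = y * x * y⁻¹ := by
  obtain ⟨u, hu, huA⟩ := hX.out
  have key : ∀ y ∈ X, f r = y * r * y⁻¹ → f u = y * u * y⁻¹ → ∃ y ∈ X, ∀ x ∈ X, f x = y * x * y⁻¹ := by
    intro y hy h1 h2
    refine ⟨y, hy, ?_⟩
    let E : Subgroup Ω :=
      { carrier := {x | x ∈ X ∧ f x = y * x * y⁻¹}
        one_mem' := ⟨one_mem X, by
          have h3 := hmul 1 (one_mem X) 1 (one_mem X)
          rw [mul_one] at h3
          rw [mul_eq_left.mp h3.symm, mul_one, mul_inv_cancel]⟩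
        mul_mem' := fun {x x'} hx hx' => ⟨mul_mem hx.1 hx'.1, by
          rw [hmul _ hx.1 _ hx'.1, hx.2, hx'.2]; group⟩
        inv_mem' := fun {x} hx => ⟨InvMemClass.inv_mem hx.1, by
          have h3 := hmul 1 (one_mem X) 1 (one_mem X)
          rw [mul_one] at h3
          have h4 := mul_eq_left.mp h3.symm
          have h5 := hmul _ (InvMemClass.inv_mem hx.1) _ hx.1
          rw [inv_mul_cancel, h4, eq_comm] at h5
          rw [eq_inv_of_mul_eq_one_left h5, hx.2]; group⟩ }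
    have h3 := Q8.induction q hX hu huA E ⟨hX.rX, h1⟩ ⟨hu, h2⟩
    exact fun x hx => (h3 hx).2
  have hrA := QR.rA q
  have hzr : z * r = r * z := q.commz q.rR
  have hzu : z * u = u * z := q.commz (hX.le hu)
  have c1 : u * r * u⁻¹ = r * z := by
    rw [QR.zpow_inv_comm q (hX.le hu) huA hrA, mul_inv_cancel_right]
    rw [inv_eq_iff_mul_eq_one, ← mul_assoc, q.rr, q.zz]
  have c2 : r * u * r⁻¹ = u * z := by
    have h1 : r * u = u * r⁻¹ := by
      rw [QR.zpow_inv_comm q (hX.le hu) huA (InvMemClass.inv_mem hrA), inv_inv]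
    rw [h1, mul_assoc, ← mul_inv_rev, q.rr, q.zinv]
  rcases h r hX.rX with h1 | h1 <;> rcases h u hu with h2 | h2
  · exact key 1 (one_mem X) (by rw [h1]; group) (by rw [h2]; group)
  · exact key r hX.rX (by rw [h1]; group) (by rw [h2, c2])
  · exact key u hu (by rw [h1, c1]) (by rw [h2]; group)
  · refine key (r * u) (mul_mem hX.rX hu) ?_ ?_
    · rw [h1]
      calc r * z = r * (r * z) * r⁻¹ := by rw [← hzr, ← mul_assoc, mul_inv_cancel_right, hzr]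
        _ = r * (u * r * u⁻¹) * r⁻¹ := by rw [c1]
        _ = _ := by group
    · rw [h2]
      calc u * z = r * u * r⁻¹ := c2.symm
        _ = _ := by group

/-- the commutator trick -/
theorem Q8.trick (q : QR R a b z r m) (hX : Q8 R a r X) {f : Ω → Ω} (hf : OddAut X f)
    (hr : f r ∉ Subgroup.zpowers a) {g : Ω} (hg : g ∈ R) (hgX : g ∉ X) (hgn : ∀ x ∈ X, g * x * g⁻¹ ∈ X) :
    ∀ x ∈ X, Eqz z (g * x * g⁻¹) (f (g * f x * g⁻¹)) := by
  have hrX := hX.rX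
  have hzX := Q8.zX q hX
  have hvX := hf.maps r hrX
  have hfz := Q8.fz q hX hf
  have hrA := QR.rA q
  have zc : ∀ x ∈ X, z * x = x * z := fun x hx => q.commz (hX.le hx)
  set v := f r with hv
  -- `f v ∉ ⟨a⟩`
  have h1 : f v ∉ Subgroup.zpowers a := by
    intro h2
    have hff : OddAut X (fun x => f (f x)) :=
      ⟨fun x hx y hy => by rw [hf.mul x hx y hy, hf.mul _ (hf.maps x hx) _ (hf.maps y hy)],
        fun x hx => hf.maps _ (hf.maps x hx), by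
          obtain ⟨n, hn, h3⟩ := hf.odd
          refine ⟨n, hn, fun x hx => ?_⟩
          have h4 : ∀ (k : ℕ) (x : Ω), (fun x => f (f x))^[k] x = f^[2 * k] x := by
            intro k
            induction k with
            | zero => intro x; rfl
            | succ k ih =>
              intro x
              rw [Function.iterate_succ_apply, ih, show 2 * (k + 1) = 2 * k + 1 + 1 from by ring,
                Function.iterate_succ_apply, Function.iterate_succ_apply]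
          rw [h4, two_mul, Function.iterate_add_apply, h3 x hx, h3 x hx]⟩
    have h3 := Q8.fix_of_r q hX hff h2
    obtain ⟨n, ⟨j, rfl⟩, h4⟩ := hf.odd
    have h5 : ∀ (k : ℕ), f^[2 * k] r = r := by
      intro k
      induction k with
      | zero => rfl
      | succ k ih =>
        rw [show 2 * (k + 1) = 2 * k + 1 + 1 from by ring, Function.iterate_succ_apply,
          Function.iterate_succ_apply]
        have h6 : f (f r) = r := h3 r hrX
        rw [h6, ih]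
    have h6 := h4 r hrX
    change f^[2 * j] (f r) = r at h6
    have h7 : ∀ (k : ℕ), f^[2 * k] (f r) = f r := by
      intro k
      induction k with
      | zero => rfl
      | succ k ih =>
        rw [show 2 * (k + 1) = 2 * k + 1 + 1 from by ring, Function.iterate_succ_apply,
          Function.iterate_succ_apply]
        have h6 : f (f (f r)) = f r := h3 (f r) hvX
        rw [h6, ih]
    rw [h7 j, ← hv] at h6
    exact hr (by rw [h6]; exact hrA)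
  have h2 : Eqz z (v * r) (f v) := by
    refine (Q8.out_out q hX hvX hr (hf.maps v hvX) h1).resolve_left fun h3 => ?_
    rcases h3 with h3 | h3
    · have h4 := hf.inj hvX hrX (h3.trans hv)
      exact hr (by rw [h4]; exact hrA)
    · have h4 := hf.inj hvX (mul_mem hrX hzX) (by rw [h3, hf.mul _ hrX _ hzX, hfz])
      exact hr (by rw [h4]; exact mul_mem hrA (QR.zA q))
  have hvr := mul_mem hvX hrX
  have h3 : Eqz z r (f (v * r)) := by
    rw [hf.mul _ hvX _ hrX, ← hv]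
    have h4 : Eqz z (v * r * v) (f v * v) := Eqz.mul q.zz (zc v hvX) h2 (Eqz.refl v)
    refine Eqz.trans q.zz ?_ h4
    have h5 : v * r * v = (v * r * v⁻¹) * z := by
      rw [← q.sq_out (hX.le hvX) hr]; group
    rw [h5]
    have h6 := Eqz.mul q.zz (x' := z) rfl (Q8.conj_eqz q hX hrX hvX) (Eqz.refl z)
    exact Eqz.trans q.zz (Or.inr rfl) h6
  have h4 : Eqz z (v * r) (g * v * g⁻¹) := Q8.swap q hX hvX hr hg hgX (hgn v hvX)
  have h5 : Eqz z r (g * r * g⁻¹) := by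
    by_cases hgA : g ∈ Subgroup.zpowers a
    · left; rw [QR.zpowers_comm hgA hrA, mul_inv_cancel_right]
    · rw [QR.zpow_inv_comm q hg hgA hrA, mul_inv_cancel_right]
      exact Q8.inv_eqz q hX hrX
  let E : Subgroup Ω :=
    { carrier := {x | x ∈ X ∧ Eqz z (g * x * g⁻¹) (f (g * f x * g⁻¹))}
      one_mem' := ⟨one_mem X, by rw [hf.one]; left; simp [hf.one]⟩
      mul_mem' := fun {x y} hx hy => ⟨mul_mem hx.1 hy.1, by
        have e1 : g * (x * y) * g⁻¹ = (g * x * g⁻¹) * (g * y * g⁻¹) := by group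
        have e2 : g * f (x * y) * g⁻¹ = (g * f x * g⁻¹) * (g * f y * g⁻¹) := by
          rw [hf.mul _ hx.1 _ hy.1]; group
        rw [e1, e2, hf.mul _ (hgn _ (hf.maps _ hx.1)) _ (hgn _ (hf.maps _ hy.1))]
        exact Eqz.mul q.zz (zc _ (hgn y hy.1)) hx.2 hy.2⟩
      inv_mem' := fun {x} hx => ⟨InvMemClass.inv_mem hx.1, by
        have e1 : g * x⁻¹ * g⁻¹ = (g * x * g⁻¹)⁻¹ := by group
        have e2 : g * f x⁻¹ * g⁻¹ = (g * f x * g⁻¹)⁻¹ := by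
          rw [hf.inv hx.1]; group
        rw [e1, e2, hf.inv (hgn _ (hf.maps _ hx.1))]
        exact Eqz.inv q.zz (zc _ (hgn x hx.1)) hx.2⟩ }
  have hE := Q8.induction q hX hvX hr E ⟨hrX, ?_⟩ ⟨hvX, ?_⟩
  · exact fun x hx => (hE hx).2
  · -- `f t f r = f t v ≈ f (v r) ≈ r ≈ t r`
    rw [← hv]
    have h6 := Eqz.map hf hzX hfz hvr h4
    exact (h5.symm q.zz).trans q.zz (h3.trans q.zz h6)
  · -- `f t f v ≈ f t (v r) ≈ f (v r r) ≈ f v ≈ v r ≈ t v`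
    have h6 : Eqz z (g * (v * r) * g⁻¹) (g * f v * g⁻¹) := Eqz.conj (q.commz hg) h2
    have h7 : Eqz z v (g * (v * r) * g⁻¹) := by
      have e1 : g * (v * r) * g⁻¹ = (g * v * g⁻¹) * (g * r * g⁻¹) := by group
      rw [e1]
      have h8 := Eqz.mul q.zz (zc r hrX) h4 h5
      rw [mul_assoc, q.rr] at h8
      exact Eqz.trans q.zz (Or.inr rfl) h8
    have h8 := Eqz.map hf hzX hfz hvX (h7.trans q.zz h6)
    exact (h4.symm q.zz).trans q.zz (h2.trans q.zz h8)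

end Q8

/-! ## Both `Q8` -/

section Both

variable (h : TQ S R a b r K k w c z d m) (hS : IsPGroup 2 S)
include h hS

/-- an odd order automorphism trivial on `R ∩ Q` and `K ∩ Q` is trivial -/
theorem TQ.fix_of_both (hQS : Q ≤ S) (hX : Q8 R a r (R ⊓ Q)) (hY : Q8 K k c (K ⊓ Q)) {f : Ω → Ω} (hf : OddAut Q f)
    (h1 : ∀ x ∈ R ⊓ Q, f x = x) (h2 : ∀ x ∈ K ⊓ Q, f x = x) : ∀ x ∈ Q, f x = x := by
  intro t ht
  have hft := hf.maps t ht
  have hy : t⁻¹ * f t ∈ Q := mul_mem (InvMemClass.inv_mem ht) hft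
  -- conjugation by `t` and by `f t` agree on elements fixed by `f`
  have key : ∀ x ∈ Q, f x = x → f (t * x * t⁻¹) = t * x * t⁻¹ → (t⁻¹ * f t) * x = x * (t⁻¹ * f t) := by
    intro x hx h3 h4
    have h5 : f (t * x * t⁻¹) = f t * x * (f t)⁻¹ := by
      rw [hf.mul _ (mul_mem ht hx) _ (InvMemClass.inv_mem ht), hf.mul _ ht _ hx, hf.inv ht, h3]
    rw [h4] at h5
    calc t⁻¹ * f t * x = t⁻¹ * (f t * x * (f t)⁻¹) * f t := by group
      _ = t⁻¹ * (t * x * t⁻¹) * f t := by rw [h5]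
      _ = x * (t⁻¹ * f t) := by group
  have hyK : t⁻¹ * f t ∈ K := h.cent_q8 hX (hQS hy) fun x hx => key x hx.2 (h1 x hx)
    (h1 _ ⟨h.R_conj (hQS ht) hx.1, Q.mul_mem (Q.mul_mem ht hx.2) (Q.inv_mem ht)⟩)
  exact hf.fix_of_mul (hS.to_le hQS) ht hy (h2 _ ⟨hyK, hy⟩) (by rw [mul_inv_cancel_left])

/-- if `Q > (R ∩ Q)(K ∩ Q)` then `α` is trivial on `R ∩ Q` -/
theorem TQ.fix_of_big (hQS : Q ≤ S) (hX : Q8 R a r (R ⊓ Q)) (hY : Q8 K k c (K ⊓ Q)) {f : Ω → Ω} (hf : OddAut Q f)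
    (hR : ∀ x ∈ Q, x ∈ R → f x ∈ R) (hK : ∀ x ∈ Q, x ∈ K → f x ∈ K) {s : Ω} (hs : s ∈ Q)
    (hs' : s ∉ (R ⊓ Q) ⊔ (K ⊓ Q)) : ∀ x ∈ R ⊓ Q, f x = x := by
  have q := h.qR
  have hfX : OddAut (R ⊓ Q) f := hf.res inf_le_right fun x hx => ⟨hR x hx.2 hx.1, hf.maps x hx.2⟩
  refine Q8.fix_of_r q hX hfX ?_
  by_contra hv
  have dec : ∀ t ∈ Q, ∃ ρ ∈ R, ∃ κ ∈ K, t = ρ * κ ∧ (ρ ∈ R ⊓ Q → t ∈ (R ⊓ Q) ⊔ (K ⊓ Q)) := by
    intro t ht
    obtain ⟨ρ, hρ, κ, hκ, rfl, -⟩ := h.norm_q8 hX (hQS ht) fun x hx =>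
      ⟨h.R_conj (hQS ht) hx.1, Q.mul_mem (Q.mul_mem ht hx.2) (Q.inv_mem ht)⟩
    refine ⟨ρ, hρ, κ, hκ, rfl, fun hρQ => ?_⟩
    have h1 : κ ∈ Q := by
      have := mul_mem (Q.inv_mem hρQ.2) ht
      rwa [inv_mul_cancel_left] at this
    exact mul_mem (Subgroup.mem_sup_left hρQ) (Subgroup.mem_sup_right ⟨hκ, h1⟩)
  have hconj : ∀ ρ ∈ R, ∀ κ ∈ K, ∀ y ∈ R, ρ * κ * y * (ρ * κ)⁻¹ = ρ * y * ρ⁻¹ := by
    intro ρ hρ κ hκ y hy
    rw [mul_assoc ρ, ← h.comm y hy κ hκ]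
    group
  -- `s r s⁻¹ ≈ r`
  obtain ⟨ρ, hρ, κ, hκ, hsρ, -⟩ := dec s hs
  have h1 : Eqz z r (s * r * s⁻¹) := by
    rw [hsρ, hconj ρ hρ κ hκ r q.rR]
    by_cases hρA : ρ ∈ Subgroup.zpowers a
    · left; rw [QR.zpowers_comm hρA (QR.rA q), mul_inv_cancel_right]
    · rw [QR.zpow_inv_comm q hρ hρA (QR.rA q), mul_inv_cancel_right]
      exact Q8.inv_eqz q hX hX.rX
  have h2 : Eqz z (f r) (f s * f r * (f s)⁻¹) := by
    have h3 := Eqz.map hf (Q8.zX q hX).2 (Q8.fz q hX hfX) hX.rX.2 h1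
    rwa [hf.mul _ (mul_mem hs hX.rX.2) _ (Q.inv_mem hs), hf.mul _ hs _ hX.rX.2, hf.inv hs] at h3
  obtain ⟨ρ', hρ', κ', hκ', hsρ', hin⟩ := dec (f s) (hf.maps s hs)
  rw [hsρ', hconj ρ' hρ' κ' hκ' _ (hR r hX.rX.2 q.rR)] at h2
  have h3 := Q8.mem_of_conj q hX (hfX.maps r hX.rX) hv hρ' h2
  have h4 := hin h3
  -- so `s ∈ (R ∩ Q)(K ∩ Q)`
  obtain ⟨n, ⟨j, rfl⟩, h5⟩ := hf.odd
  have h6 := h5 s hs
  change f^[2 * j] (f s) = s at h6
  have h7 : ∀ x ∈ (R ⊓ Q) ⊔ (K ⊓ Q), f x ∈ (R ⊓ Q) ⊔ (K ⊓ Q) := by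
    let E : Subgroup Ω :=
      { carrier := {x | x ∈ Q ∧ f x ∈ (R ⊓ Q) ⊔ (K ⊓ Q)}
        one_mem' := ⟨one_mem Q, by rw [hf.one]; exact one_mem _⟩
        mul_mem' := fun {x y} hx hy => ⟨mul_mem hx.1 hy.1, by rw [hf.mul _ hx.1 _ hy.1]; exact mul_mem hx.2 hy.2⟩
        inv_mem' := fun {x} hx => ⟨Q.inv_mem hx.1, by rw [hf.inv hx.1]; exact Subgroup.inv_mem _ hx.2⟩ }
    have hE : (R ⊓ Q) ⊔ (K ⊓ Q) ≤ E := sup_le
      (fun x hx => ⟨hx.2, Subgroup.mem_sup_left ⟨hR x hx.2 hx.1, hf.maps x hx.2⟩⟩)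
      (fun x hx => ⟨hx.2, Subgroup.mem_sup_right ⟨hK x hx.2 hx.1, hf.maps x hx.2⟩⟩)
    exact fun x hx => (hE hx).2
  have h8 : ∀ n : ℕ, f^[n] (f s) ∈ (R ⊓ Q) ⊔ (K ⊓ Q) := by
    intro n
    induction n with
    | zero => rw [hsρ'] at h4 ⊢; exact h4
    | succ n ih => rw [Function.iterate_succ_apply']; exact h7 _ ih
  apply hs'
  rw [← h6]
  exact h8 _

end Both

/-- agreement on generators -/
theorem un_ext_sup {A B : Subgroup Ω} {α β : MulAut Q} (hle : Q ≤ A ⊔ B) (hA : A ≤ Q) (hB : B ≤ Q)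
    (h1 : ∀ x ∈ A, un α x = un β x) (h2 : ∀ x ∈ B, un α x = un β x) : α = β := by
  let E : Subgroup Ω :=
    { carrier := {x | x ∈ Q ∧ un α x = un β x}
      one_mem' := ⟨one_mem Q, by
        rw [un_apply _ (one_mem Q), un_apply _ (one_mem Q)]
        exact congrArg Subtype.val ((map_one α).trans (map_one β).symm)⟩
      mul_mem' := fun {x y} hx hy => ⟨mul_mem hx.1 hy.1, by
        rw [un_hom _ hx.1 hy.1, un_hom _ hx.1 hy.1, hx.2, hy.2]⟩
      inv_mem' := fun {x} hx => ⟨Q.inv_mem hx.1, by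
        have e1 : ∀ γ : MulAut Q, un γ x⁻¹ = (un γ x)⁻¹ := fun γ => by
          rw [un_apply _ hx.1, un_apply _ (Q.inv_mem hx.1), ← Subgroup.coe_inv, ← map_inv]
          rfl
        rw [e1, e1, hx.2]⟩ }
  have hE : Q ≤ E := hle.trans (sup_le (fun x hx => ⟨hA hx, h1 x hx⟩) fun x hx => ⟨hB hx, h2 x hx⟩)
  exact un_ext fun x hx => (hE hx).2

section BothEq

variable (h : TQ S R a b r K k w c z d m) (hS : IsPGroup 2 S)
include h hS

/-- an element of `N_R(X) ∖ X` -/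
theorem TQ.exists_norm (hX : Q8 R a r (R ⊓ Q)) (hQ : Q ≤ (R ⊓ Q) ⊔ (K ⊓ Q)) :
    ∃ g ∈ R, g ∉ Q ∧ g ∈ Subgroup.normalizer (Q : Set Ω) ∧ ∀ x ∈ R ⊓ Q, g * x * g⁻¹ ∈ R ⊓ Q := by
  have hlt : R ⊓ Q < R := by
    refine lt_of_le_of_ne inf_le_left fun he => ?_
    rw [he] at hX
    exact QR.not_q8 h.qR hX
  obtain ⟨g, hg, hgX, hgn⟩ := H759.exists_mem_normalizer_not_mem hS h.RS hlt
  have hconj : ∀ x ∈ R ⊓ Q, g * x * g⁻¹ ∈ R ⊓ Q := fun x hx => (Subgroup.mem_normalizer_iff.1 hgn x).1 hx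
  have hconj' : ∀ x ∈ R ⊓ Q, g⁻¹ * x * g⁻¹⁻¹ ∈ R ⊓ Q := fun x hx =>
    (Subgroup.mem_normalizer_iff.1 (Subgroup.inv_mem _ hgn) x).1 hx
  have hgQ : g ∉ Q := fun h => hgX ⟨hg, h⟩
  have key : ∀ g ∈ R, (∀ x ∈ R ⊓ Q, g * x * g⁻¹ ∈ R ⊓ Q) → ∀ x ∈ Q, g * x * g⁻¹ ∈ Q := by
    intro g hg hconj
    let E : Subgroup Ω :=
      { carrier := {x | g * x * g⁻¹ ∈ Q}
        one_mem' := by show g * 1 * g⁻¹ ∈ Q; rw [mul_one, mul_inv_cancel]; exact one_mem Q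
        mul_mem' := fun {x y} hx hy => by
          show g * (x * y) * g⁻¹ ∈ Q
          have e1 : g * (x * y) * g⁻¹ = (g * x * g⁻¹) * (g * y * g⁻¹) := by group
          rw [e1]; exact mul_mem hx hy
        inv_mem' := fun {x} hx => by
          show g * x⁻¹ * g⁻¹ ∈ Q
          have e1 : g * x⁻¹ * g⁻¹ = (g * x * g⁻¹)⁻¹ := by group
          rw [e1]; exact Q.inv_mem hx }
    have hE : Q ≤ E := hQ.trans (sup_le (fun x hx => (hconj x hx).2) fun x hx => by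
      show g * x * g⁻¹ ∈ Q
      rw [h.comm g hg x hx.1, mul_inv_cancel_right]
      exact hx.2)
    exact fun x hx => hE hx
  refine ⟨g, hg, hgQ, ?_, hconj⟩
  rw [Subgroup.mem_normalizer_iff]
  intro x
  refine ⟨fun hx => key g hg hconj x hx, fun hx => ?_⟩
  have h1 := key g⁻¹ (R.inv_mem hg) hconj' _ hx
  have e1 : g⁻¹ * (g * x * g⁻¹) * g⁻¹⁻¹ = x := by group
  rwa [e1] at h1

/-- automorphisms trivial on `R ∩ Q` extend -/
theorem TQ.ext_of_fix (hQr : C.IsReceptive Q) (hX : Q8 R a r (R ⊓ Q)) (hQ : Q ≤ (R ⊓ Q) ⊔ (K ⊓ Q))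
    (hK : ∀ α ∈ C.autGroup Q, ∀ x ∈ Q, x ∈ K → un α x ∈ K) {α : MulAut Q} (hα : α ∈ C.autGroup Q)
    (hfix : ∀ x ∈ R ⊓ Q, un α x = x) : Extends C Q α := by
  have hQS := hQr.1
  obtain ⟨g, hg, hgQ, hgn, hconj⟩ := h.exists_norm hS hX hQ
  obtain ⟨τ, hτ⟩ := exists_conjAut hgn
  have hτu : ∀ x ∈ Q, un τ x = g * x * g⁻¹ := fun x hx => by rw [un_apply _ hx, hτ]
  refine extends_of_conj_mem hQr hα (h.RS hg) hgQ hτ ?_
  have h1 : α * τ = τ * α := by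
    refine un_ext_sup hQ inf_le_right inf_le_right (fun x hx => ?_) fun x hx => ?_
    · rw [un_mul _ _ hx.2, un_mul _ _ hx.2, hτu x hx.2, hfix x hx, hτu x hx.2, hfix _ (hconj x hx)]
    · have h2 : ∀ y ∈ Q, y ∈ K → un τ y = y := fun y hy hyK => by
        rw [hτu y hy, h.comm g hg y hyK, mul_inv_cancel_right]
      rw [un_mul _ _ hx.2, un_mul _ _ hx.2, h2 x hx.2 hx.1, h2 _ (un_mem α hx.2) (hK α hα x hx.2 hx.1)]
  rw [h1, mul_inv_cancel_right]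
  exact (mem_autInducedBy_iff S Q τ).2 ⟨g, h.RS hg, hτ⟩

/-- Both `R ∩ Q` and `K ∩ Q` are `Q8` and `Q` is their product. -/
theorem TQ.both (hQr : C.IsReceptive Q) (hX : Q8 R a r (R ⊓ Q)) (hY : Q8 K k c (K ⊓ Q))
    (hQ : Q ≤ (R ⊓ Q) ⊔ (K ⊓ Q)) (hR : ∀ α ∈ C.autGroup Q, ∀ x ∈ Q, x ∈ R → un α x ∈ R)
    (hK : ∀ α ∈ C.autGroup Q, ∀ x ∈ Q, x ∈ K → un α x ∈ K) (D : Subgroup (MulAut Q))
    (hD : ∀ α ∈ C.autGroup Q, Extends C Q α → α ∈ D) {α : MulAut Q} (hα : α ∈ C.autGroup Q)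
    (hodd : Nat.Coprime (orderOf α) 2) : α ∈ D := by
  have hQS := hQr.1
  have hfQ : Finite Q := finite_of_le hQS
  have hf := un_oddAut hodd
  have hQ' : Q ≤ (K ⊓ Q) ⊔ (R ⊓ Q) := by rwa [sup_comm]
  have q := h.qK
  obtain ⟨g, hg, hgQ, hgn, hconj⟩ := h.symm.exists_norm hS hY hQ'
  obtain ⟨τ, hτ⟩ := exists_conjAut hgn
  have hτu : ∀ x ∈ Q, un τ x = g * x * g⁻¹ := fun x hx => by rw [un_apply _ hx, hτ]
  have hτi : τ ∈ autInducedBy S Q := (mem_autInducedBy_iff S Q τ).2 ⟨g, h.KS hg, hτ⟩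
  have hτA : τ ∈ C.autGroup Q := autInducedBy_le_autGroup C hQS hτi
  have hne : Q ≠ S := fun he => hgQ (by rw [he]; exact h.KS hg)
  -- inner automorphisms
  have hfY : OddAut (K ⊓ Q) (un α) := hf.res inf_le_right fun x hx => ⟨hK α hα x hx.2 hx.1, hf.maps x hx.2⟩
  by_cases hc : un α c ∈ Subgroup.zpowers k
  · exact hD α hα (h.symm.ext_of_fix hS hQr hY hQ' hR hα (Q8.fix_of_r q hY hfY hc))
  have htrick := Q8.trick q hY hfY hc hg (fun h1 => hgQ h1.2) hconj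
  -- `α τ α τ⁻¹` is inner on `K ∩ Q`
  have hα' : τ * α * τ⁻¹ ∈ C.autGroup Q := mul_mem (mul_mem hτA hα) (Subgroup.inv_mem _ hτA)
  have hτR : ∀ y ∈ Q, y ∈ R → un τ y = y := fun y hy hyR => by
    rw [hτu y hy, ← h.comm y hyR g hg, mul_inv_cancel_right]
  have hτR' : ∀ y ∈ Q, y ∈ R → un τ⁻¹ y = y := fun y hy hyR => by
    have h1 := un_inv_apply τ hy
    rwa [hτR y hy hyR] at h1
  have h1 : α⁻¹ * (τ * α * τ⁻¹) ∈ D := by
    refine hD _ (mul_mem (Subgroup.inv_mem _ hα) hα') (h.ext_of_fix hS hQr hX hQ hK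
      (mul_mem (Subgroup.inv_mem _ hα) hα') fun x hx => ?_)
    rw [un_mul _ _ hx.2, un_mul _ _ hx.2, hτR' x hx.2 hx.1, un_mul _ _ hx.2, hτR _ (un_mem α hx.2) (hR α hα x hx.2 hx.1),
      un_inv_apply α hx.2]
  have h2 : α * (τ * α * τ⁻¹) ∈ D := by
    have hmem : α * (τ * α * τ⁻¹) ∈ C.autGroup Q := mul_mem hα hα'
    have hYinv : ∀ x ∈ K ⊓ Q, un (α * (τ * α * τ⁻¹)) x ∈ K ⊓ Q := fun x hx =>
      ⟨hK _ hmem x hx.2 hx.1, un_mem _ hx.2⟩
    have hE : ∀ x ∈ K ⊓ Q, Eqz z x (un (α * (τ * α * τ⁻¹)) x) := by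
      intro x hx
      -- `x = τ y`
      have hy : un τ⁻¹ x ∈ K ⊓ Q := ⟨hK _ (Subgroup.inv_mem _ hτA) x hx.2 hx.1, un_mem _ hx.2⟩
      have h3 := htrick _ hy
      have h4 : g * un τ⁻¹ x * g⁻¹ = x := by
        rw [← hτu _ hy.2, un_apply_inv τ hx.2]
      have h5 : un (α * (τ * α * τ⁻¹)) x = un α (g * un α (un τ⁻¹ x) * g⁻¹) := by
        rw [un_mul _ _ hx.2, un_mul _ _ hx.2, un_mul _ _ (un_mem _ hx.2), hτu _ (un_mem _ (un_mem _ hx.2))]
      rw [h4] at h3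
      rw [h5]
      exact h3
    obtain ⟨y, hy, hin⟩ := Q8.inner q hY (fun x hx x' hx' => un_hom _ hx.2 hx'.2) hE
    -- conjugation by `y`
    have hyn : y ∈ Subgroup.normalizer (Q : Set Ω) := Subgroup.le_normalizer hy.2
    obtain ⟨σ, hσ⟩ := exists_conjAut hyn
    have hσu : ∀ x ∈ Q, un σ x = y * x * y⁻¹ := fun x hx => by rw [un_apply _ hx, hσ]
    have hσi : σ ∈ autInducedBy S Q := (mem_autInducedBy_iff S Q σ).2 ⟨y, hQS hy.2, hσ⟩
    have hσA : σ ∈ C.autGroup Q := autInducedBy_le_autGroup C hQS hσi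
    have hσD : σ ∈ D := hD σ hσA (extends_of_mem_autInducedBy hS C hQS hne hσi)
    have h6 : σ⁻¹ * (α * (τ * α * τ⁻¹)) ∈ D := by
      refine hD _ (mul_mem (Subgroup.inv_mem _ hσA) hmem) (h.symm.ext_of_fix hS hQr hY hQ' hR
        (mul_mem (Subgroup.inv_mem _ hσA) hmem) fun x hx => ?_)
      rw [un_mul _ _ hx.2, hin x hx, ← hσu x hx.2, un_inv_apply σ hx.2]
    have h7 := mul_mem hσD h6
    rwa [mul_inv_cancel_left] at h7
  have h3 : α * α ∈ D := by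
    have h4 := mul_mem h2 (Subgroup.inv_mem _ h1)
    have h5 : α * (τ * α * τ⁻¹) * (α⁻¹ * (τ * α * τ⁻¹))⁻¹ = α * α := by group
    rwa [h5] at h4
  obtain ⟨j, hj⟩ := Nat.coprime_two_right.mp hodd
  have h4 := pow_mem h3 (j + 1)
  have h5 : (α * α) ^ (j + 1) = α := by
    rw [← pow_two, ← pow_mul, show 2 * (j + 1) = orderOf α + 1 from by omega, pow_succ, pow_orderOf_eq_one, one_mul]
  rwa [h5] at h4

end BothEq

/-- **Main step**: odd order automorphisms of centric subgroups. -/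
theorem TQ.main (h : TQ S R a b r K k w c z d m) (hS : IsPGroup 2 S) (hQa : C.IsFullyAutomized 2 Q)
    (hQr : C.IsReceptive Q) (hR : ∀ α ∈ C.autGroup Q, ∀ x ∈ Q, x ∈ R → un α x ∈ R) (D : Subgroup (MulAut Q))
    (hD : ∀ α ∈ C.autGroup Q, Extends C Q α → α ∈ D)
    (hτ : ∀ α ∈ C.autGroup Q, Nat.Coprime (orderOf α) 2 → Q8 R a r (R ⊓ Q) → Q = (R ⊓ Q) ⊔ K →
      (∀ x ∈ R ⊓ Q, un α x ∈ R ⊓ Q) → (∀ x ∈ K, un α x = x) → α ∈ D)
    (hσ : ∀ α ∈ C.autGroup Q, Nat.Coprime (orderOf α) 2 → Q8 K k c (K ⊓ Q) → Q = (K ⊓ Q) ⊔ R →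
      (∀ x ∈ K ⊓ Q, un α x ∈ K ⊓ Q) → (∀ x ∈ R, un α x = x) → α ∈ D) :
    ∀ α ∈ C.autGroup Q, Nat.Coprime (orderOf α) 2 → α ∈ D := by
  intro α hα hodd
  have hQS := hQr.1
  have hfQ : Finite Q := finite_of_le hQS
  have hf := un_oddAut hodd
  by_cases hA : ¬ R ≤ Q ∧ ¬ Q8 R a r (R ⊓ Q)
  · exact hD α hα (h.step1 hS hQa hQr hR hA.1 hA.2 hα)
  have hA' : R ≤ Q ∨ Q8 R a r (R ⊓ Q) := by tauto
  -- `K ∩ Q` is invariant
  have hK : ∀ α ∈ C.autGroup Q, ∀ x ∈ Q, x ∈ K → un α x ∈ K := by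
    intro β hβ x hx hxK
    have key : ∀ y ∈ R ⊓ Q, un β x * y = y * un β x := by
      intro y hy
      have h1 : un β⁻¹ y ∈ R := hR _ (Subgroup.inv_mem _ hβ) y hy.2 hy.1
      have h2 := h.comm _ h1 x hxK
      have h3 := congrArg (un β) h2
      rw [un_hom _ (un_mem _ hy.2) hx, un_hom _ hx (un_mem _ hy.2), un_apply_inv β hy.2] at h3
      exact h3.symm
    rcases hA' with h1 | h1
    · exact h.cent_R (hQS (un_mem β hx)) fun y hy => key y ⟨hy, h1 hy⟩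
    · exact h.cent_q8 h1 (hQS (un_mem β hx)) key
  by_cases hB : ¬ K ≤ Q ∧ ¬ Q8 K k c (K ⊓ Q)
  · exact hD α hα (h.symm.step1 hS hQa hQr hK hB.1 hB.2 hα)
  have hB' : K ≤ Q ∨ Q8 K k c (K ⊓ Q) := by tauto
  have hXinv : ∀ x ∈ R ⊓ Q, un α x ∈ R ⊓ Q := fun x hx => ⟨hR α hα x hx.2 hx.1, hf.maps x hx.2⟩
  have hYinv : ∀ x ∈ K ⊓ Q, un α x ∈ K ⊓ Q := fun x hx => ⟨hK α hα x hx.2 hx.1, hf.maps x hx.2⟩
  rcases hA' with hRQ | hX
  · have hfixR := h.symm.fix_K hRQ hf (hR α hα)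
    rcases hB' with hKQ | hY
    · -- `α = 1`
      have hfixK := h.fix_K hKQ hf (hK α hα)
      have h1 : α = 1 := by
        refine un_eq_one fun x hx => ?_
        -- `x⁻¹ α(x)` centralizes `R` and `K`
        have hy : x⁻¹ * un α x ∈ Q := mul_mem (Q.inv_mem hx) (hf.maps x hx)
        have key : ∀ y ∈ R, (x⁻¹ * un α x) * y = y * (x⁻¹ * un α x) := by
          intro y hyR
          have h3 := hfixR _ (h.R_conj (hQS hx) hyR)
          have h5 : un α (x * y * x⁻¹) = un α x * y * (un α x)⁻¹ := by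
            rw [hf.mul _ (mul_mem hx (hRQ hyR)) _ (Q.inv_mem hx), hf.mul _ hx _ (hRQ hyR), hf.inv hx, hfixR y hyR]
          rw [h3] at h5
          calc x⁻¹ * un α x * y = x⁻¹ * (un α x * y * (un α x)⁻¹) * un α x := by group
            _ = x⁻¹ * (x * y * x⁻¹) * un α x := by rw [h5]
            _ = y * (x⁻¹ * un α x) := by group
        have hyK := h.cent_R (hQS hy) key
        exact hf.fix_of_mul (hS.to_le hQS) hx hy (hfixK _ hyK) (by rw [mul_inv_cancel_left])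
      rw [h1]
      exact one_mem D
    · exact hσ α hα hodd hY (h.symm.eq_sup hQS hY hRQ) hYinv hfixR
  · rcases hB' with hKQ | hY
    · exact hτ α hα hodd hX (h.eq_sup hQS hX hKQ) hXinv (h.fix_K hKQ hf (hK α hα))
    · by_cases hQ : Q ≤ (R ⊓ Q) ⊔ (K ⊓ Q)
      · exact h.both hS hQr hX hY hQ hR hK D hD hα hodd
      · -- `α = 1`
        obtain ⟨s, hs, hs'⟩ := SetLike.not_le_iff_exists.mp hQ
        have h1 := h.fix_of_big hS hQS hX hY hf (hR α hα) (hK α hα) hs hs'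
        have h2 := h.symm.fix_of_big hS hQS hY hX hf (hK α hα) (hR α hα) hs (by rwa [sup_comm])
        have h3 : α = 1 := un_eq_one (h.fix_of_both hS hQS hX hY hf h1 h2)
        rw [h3]
        exact one_mem D

end Cfsg.Agent.H745.Q
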