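import Cfsg.Agent.H757.Sf.Types

/-! # S5176, section 5: odd order automorphisms of subgroups of a quaternion group (helper745) -/
set_option autoImplicit false

open Cfsg Cfsg.FusionSystem Cfsg.Agent.H752 Cfsg.Agent.H784.SF Cfsg.Agent.H784.Q

universe u

namespace Cfsg.Agent.H745.Q

variable {Ω : Type u} [Group Ω]

/-- `f` restricts to an endomorphism of `X` with an odd power equal to the identity. -/
structure OddAut (X : Subgroup Ω) (f : Ω → Ω) : Prop where
  mul : ∀ x ∈ X, ∀ y ∈ X, f (x * y) = f x * f y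
  maps : ∀ x ∈ X, f x ∈ X
  odd : ∃ n : ℕ, Odd n ∧ ∀ x ∈ X, f^[n] x = x

namespace OddAut

variable {X : Subgroup Ω} {f : Ω → Ω} (h : OddAut X f)
include h

theorem one : f 1 = 1 := by
  have h1 := h.mul 1 (one_mem X) 1 (one_mem X)
  rw [mul_one] at h1
  exact (mul_eq_left.mp h1.symm)

theorem inv {x : Ω} (hx : x ∈ X) : f x⁻¹ = (f x)⁻¹ := by
  rw [eq_inv_iff_mul_eq_one, ← h.mul _ (inv_mem hx) _ hx, inv_mul_cancel, h.one]

theorem pow {x : Ω} (hx : x ∈ X) (n : ℕ) : f (x ^ n) = f x ^ n := by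
  induction n with
  | zero => rw [pow_zero, pow_zero, h.one]
  | succ n ih => rw [pow_succ, pow_succ, h.mul _ (pow_mem hx n) _ hx, ih]

theorem zpow {x : Ω} (hx : x ∈ X) (n : ℤ) : f (x ^ n) = f x ^ n := by
  cases n with
  | ofNat n => rw [Int.ofNat_eq_natCast, zpow_natCast, zpow_natCast]; exact h.pow hx n
  | negSucc n => rw [zpow_negSucc, zpow_negSucc, h.inv (pow_mem hx _), h.pow hx]

theorem iter_maps {x : Ω} (hx : x ∈ X) (n : ℕ) : f^[n] x ∈ X := by
  induction n with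
  | zero => exact hx
  | succ n ih => rw [Function.iterate_succ', Function.comp_apply]; exact h.maps _ ih

theorem inj {x y : Ω} (hx : x ∈ X) (hy : y ∈ X) (hxy : f x = f y) : x = y := by
  obtain ⟨n, hn, h1⟩ := h.odd
  obtain ⟨k, rfl⟩ := hn
  rw [← h1 x hx, ← h1 y hy]
  show f^[2 * k] (f x) = f^[2 * k] (f y)
  rw [hxy]

/-- restriction to an invariant subgroup -/
theorem res {Y : Subgroup Ω} (hYX : Y ≤ X) (hm : ∀ x ∈ Y, f x ∈ Y) : OddAut Y f :=
  ⟨fun x hx y hy => h.mul x (hYX hx) y (hYX hy), hm, by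
    obtain ⟨n, hn, h1⟩ := h.odd
    exact ⟨n, hn, fun x hx => h1 x (hYX hx)⟩⟩

theorem fix_pow {x : Ω} (hx : x ∈ X) (hf : f x = x) (n : ℤ) : f (x ^ n) = x ^ n := by
  rw [h.zpow hx, hf]

/-- `f u = u y` with `y` fixed, in a 2-group -/
theorem fix_of_mul (h2 : IsPGroup 2 X) {u y : Ω} (hu : u ∈ X) (hy : y ∈ X) (hfy : f y = y)
    (hfu : f u = u * y) : f u = u := by
  obtain ⟨n, hn, h1⟩ := h.odd
  have h3 : ∀ k : ℕ, f^[k] u = u * y ^ k := by
    intro k
    induction k with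
    | zero => simp
    | succ k ih =>
      rw [Function.iterate_succ', Function.comp_apply, ih, h.mul _ hu _ (pow_mem hy k), hfu, h.pow hy, hfy,
        pow_succ', mul_assoc]
  have h4 : y ^ n = 1 := by
    have h5 := h3 n
    rw [h1 u hu] at h5
    exact (mul_eq_left.mp h5.symm)
  obtain ⟨k, hk⟩ := h2 ⟨y, hy⟩
  have h5 : y ^ 2 ^ k = 1 := by
    have := congrArg Subtype.val hk
    simpa using this
  have h6 : orderOf y ∣ Nat.gcd n (2 ^ k) := Nat.dvd_gcd (orderOf_dvd_of_pow_eq_one h4) (orderOf_dvd_of_pow_eq_one h5)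
  have h7 : Nat.gcd n (2 ^ k) = 1 := Nat.Coprime.pow_right k (Nat.coprime_two_right.mpr hn)
  rw [h7, Nat.dvd_one, orderOf_eq_one_iff] at h6
  rw [hfu, h6, mul_one]

/-- in a 2-group, an element sent to one of its powers is fixed -/
theorem fix_of_zpow (h2 : IsPGroup 2 X) {x : Ω} (hx : x ∈ X) (hfx : f x ∈ Subgroup.zpowers x) : f x = x := by
  obtain ⟨i, hi⟩ := hfx
  change x ^ i = f x at hi
  obtain ⟨n, hn, h1⟩ := h.odd
  have h3 : ∀ k : ℕ, f^[k] x = x ^ (i ^ k) := by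
    intro k
    induction k with
    | zero => simp
    | succ k ih =>
      rw [Function.iterate_succ', Function.comp_apply, ih, h.zpow hx, ← hi, ← zpow_mul, ← pow_succ']
  have h4 : x ^ (i ^ n - 1) = 1 := by
    rw [zpow_sub, ← h3 n, h1 x hx, zpow_one, mul_inv_cancel]
  obtain ⟨k, hk⟩ := (IsPGroup.iff_orderOf.mp h2) ⟨x, hx⟩
  have hk' : orderOf x = 2 ^ k := by
    rw [← hk, Subgroup.orderOf_mk]
  have h5 : ((2 ^ k : ℕ) : ℤ) ∣ i ^ n - 1 := by
    rw [← hk']
    exact orderOf_dvd_iff_zpow_eq_one.mpr h4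
  rcases Nat.eq_zero_or_pos k with h0 | h0
  · rw [h0, pow_zero, orderOf_eq_one_iff] at hk'
    rw [hk', h.one]
  have hodd : Odd i := by
    rcases Int.even_or_odd i with he | ho
    · exfalso
      have h6 : (2 : ℤ) ∣ i ^ n - 1 := by
        refine dvd_trans ?_ h5
        push_cast
        exact dvd_pow_self 2 h0.ne'
      have h7 : (2 : ℤ) ∣ i ^ n := dvd_pow he.two_dvd (by rintro rfl; exact absurd hn (by decide))
      have h8 : (2 : ℤ) ∣ 1 := by
        have := dvd_sub h7 h6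
        simp at this
      norm_num at h8
    · exact ho
  have h6 : i ^ n - 1 = (∑ j ∈ Finset.range n, i ^ j) * (i - 1) := (geom_sum_mul i n).symm
  have h7 : Odd (∑ j ∈ Finset.range n, i ^ j) := by
    have h8 : ∀ k : ℕ, (∑ j ∈ Finset.range k, i ^ j) % 2 = (k : ℤ) % 2 := by
      intro k
      induction k with
      | zero => simp
      | succ k ih =>
        rw [Finset.sum_range_succ, Int.add_emod, ih, Int.odd_iff.mp (hodd.pow)]
        push_cast
        omega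
    rw [Int.odd_iff, h8 n]
    obtain ⟨l, rfl⟩ := hn
    push_cast
    omega
  have h8 : ((2 ^ k : ℕ) : ℤ) ∣ i - 1 := by
    rw [h6] at h5
    refine IsCoprime.dvd_of_dvd_mul_left ?_ h5
    push_cast
    refine IsCoprime.pow_left ?_
    obtain ⟨l, hl⟩ := h7
    rw [hl]
    exact ⟨-l, 1, by ring⟩
  rw [← hk'] at h8
  have h9 := orderOf_dvd_iff_zpow_eq_one.mp h8
  rw [zpow_sub, zpow_one, mul_inv_eq_one] at h9
  rw [← hi, h9]

end OddAut

variable {R : Subgroup Ω} {a b z r : Ω} {m : ℕ}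

theorem QR.isPGroup (q : QR R a b z r m) : IsPGroup 2 R := fun x => ⟨m, Subtype.ext (by
  rw [Subgroup.coe_pow]; exact q.pow_two_pow x.2)⟩

/-- Two elements of `R` outside `⟨a⟩` -/
theorem QR.out_mul (q : QR R a b z r m) {x y : Ω} (hx : x ∈ R) (hxA : x ∉ Subgroup.zpowers a) (hy : y ∈ R)
    (hyA : y ∉ Subgroup.zpowers a) : x⁻¹ * y ∈ Subgroup.zpowers a := by
  obtain ⟨i, rfl⟩ := q.out_eq hx hxA
  obtain ⟨j, rfl⟩ := q.out_eq hy hyA
  have h1 : (b * a ^ i)⁻¹ * (b * a ^ j) = (a ^ i)⁻¹ * a ^ j := by group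
  rw [h1]
  exact mul_mem (inv_mem (Subgroup.npow_mem_zpowers a i)) (Subgroup.npow_mem_zpowers a j)

/-- An odd order automorphism of `X ≤ R` preserving `X ∩ ⟨a⟩` is trivial. -/
theorem QR.fix_of_maps (q : QR R a b z r m) {X : Subgroup Ω} (hX : X ≤ R) {f : Ω → Ω} (h : OddAut X f)
    (hm : ∀ x ∈ X, x ∈ Subgroup.zpowers a → f x ∈ Subgroup.zpowers a) : ∀ x ∈ X, f x = x := by
  have h2 : IsPGroup 2 X := (QR.isPGroup q).to_le hX
  -- `Y = X ∩ ⟨a⟩` is fixed
  have hY : ∀ x ∈ X, x ∈ Subgroup.zpowers a → f x = x := by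
    have hc : IsCyclic (X ⊓ Subgroup.zpowers a : Subgroup Ω) := by
      have h3 : IsCyclic ((X ⊓ Subgroup.zpowers a).subgroupOf (Subgroup.zpowers a)) := inferInstance
      exact isCyclic_of_surjective (Subgroup.subgroupOfEquivOfLe (inf_le_right : X ⊓ Subgroup.zpowers a ≤ _))
        (MulEquiv.surjective _)
    obtain ⟨⟨y, hy⟩, hgen⟩ := hc.exists_generator
    have hyX : y ∈ X := hy.1
    have h4 : ∀ x ∈ X, x ∈ Subgroup.zpowers a → x ∈ Subgroup.zpowers y := by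
      intro x hx hxa
      obtain ⟨n, hn⟩ := hgen ⟨x, hx, hxa⟩
      exact ⟨n, by simpa using congrArg Subtype.val hn⟩
    have h5 : f y = y := h.fix_of_zpow h2 hyX (h4 _ (h.maps y hyX) (hm y hyX hy.2))
    intro x hx hxa
    obtain ⟨n, rfl⟩ := h4 x hx hxa
    exact h.fix_pow hyX h5 n
  intro u hu
  by_cases huA : u ∈ Subgroup.zpowers a
  · exact hY u hu huA
  · have h3 : f u ∉ Subgroup.zpowers a := by
      intro h4
      apply huA
      have h5 := hY _ (h.maps u hu) h4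
      have h6 := h.inj (h.maps u hu) hu h5
      rwa [h6] at h4
    have h4 := QR.out_mul q (hX hu) huA (hX (h.maps u hu)) h3
    have h5 : u⁻¹ * f u ∈ X := mul_mem (inv_mem hu) (h.maps u hu)
    exact h.fix_of_mul h2 hu h5 (hY _ h5 h4) (by rw [mul_inv_cancel_left])

/-- `X ≤ R` is quaternion of order eight. -/
structure Q8 (R : Subgroup Ω) (a r : Ω) (X : Subgroup Ω) : Prop where
  le : X ≤ R
  rX : r ∈ X
  cyc : ∀ x ∈ X, x ∈ Subgroup.zpowers a → x ∈ Subgroup.zpowers r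
  out : ∃ u ∈ X, u ∉ Subgroup.zpowers a

theorem QR.mem_zpowers_r (q : QR R a b z r m) {x : Ω} (hx : x ∈ Subgroup.zpowers a) (h4 : x ^ 4 = 1) :
    x ∈ Subgroup.zpowers r := by
  obtain ⟨n, rfl⟩ := hx
  change (a ^ n) ^ 4 = 1 at h4
  change a ^ n ∈ _
  rw [← zpow_natCast, ← zpow_mul] at h4
  have h1 := orderOf_dvd_iff_zpow_eq_one.mpr h4
  rw [q.oa] at h1
  have hm := q.m3
  have h2 : ((2 ^ m : ℕ) : ℤ) = (2 ^ (m - 2) : ℤ) * 4 := by
    rw [show m = m - 2 + 2 from by omega]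
    push_cast
    rw [pow_add]
    norm_num
  rw [h2] at h1
  obtain ⟨l, hl⟩ := Int.dvd_of_mul_dvd_mul_right (by norm_num : (4 : ℤ) ≠ 0) h1
  rw [hl, zpow_mul, q.hr]
  refine ⟨l, ?_⟩
  change (a ^ 2 ^ (m - 2)) ^ l = _
  congr 1
  rw [← zpow_natCast]
  push_cast
  rfl

theorem QR.r_pow_four (q : QR R a b z r m) : r ^ (4 : ℤ) = 1 := by
  have h1 : r ^ (4 : ℕ) = r * r * (r * r) := by rw [← pow_two, ← pow_two, ← pow_mul]
  rw [show (4 : ℤ) = ((4 : ℕ) : ℤ) from rfl, zpow_natCast, h1, q.r_four]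

/-- Odd order automorphisms of a subgroup of `R` which is not `Q8` are trivial. -/
theorem QR.fix_of_not_q8 (q : QR R a b z r m) {X : Subgroup Ω} (hX : X ≤ R) {f : Ω → Ω} (h : OddAut X f)
    (hn : ¬ Q8 R a r X) : ∀ x ∈ X, f x = x := by
  by_cases hA : ∀ x ∈ X, x ∈ Subgroup.zpowers a
  · exact QR.fix_of_maps q hX h fun x hx _ => hA _ (h.maps x hx)
  push Not at hA
  obtain ⟨u, hu, huA⟩ := hA
  refine QR.fix_of_maps q hX h fun x hx hxa => ?_
  by_contra hfx
  have h1 := q.sq_out (hX (h.maps x hx)) hfx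
  -- `x` has order four
  have h2 : f (x * x) = z := by rw [h.mul x hx x hx, h1]
  have h3 : x ^ 4 = 1 := by
    have h4 : f (x ^ 4) = f 1 := by
      rw [show x ^ 4 = (x * x) * (x * x) from by rw [← pow_two, ← pow_two, ← pow_mul], h.mul _ (mul_mem hx hx) _ (mul_mem hx hx), h2, q.zz, h.one]
    exact h.inj (pow_mem hx 4) (one_mem X) h4
  have h5 : x ^ 2 ≠ 1 := by
    intro h6
    rw [← pow_two, h6, h.one] at h2
    exact q.z_ne h2.symm
  -- so `⟨x⟩ = ⟨r⟩`
  have h6 := QR.mem_zpowers_r q hxa h3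
  have hrX : r ∈ X := by
    obtain ⟨n, rfl⟩ := h6
    change (r ^ n) ^ 2 ≠ 1 at h5
    change r ^ n ∈ X at hx
    have h7 : Odd n := by
      rcases Int.even_or_odd' n with ⟨l, rfl | rfl⟩
      · exfalso
        apply h5
        have h8 : r ^ (4 : ℤ) = 1 := QR.r_pow_four q
        rw [← zpow_natCast, ← zpow_mul, show (2 * l * ((2 : ℕ) : ℤ)) = 4 * l from by push_cast; ring, zpow_mul, h8,
          one_zpow]
      · exact ⟨l, rfl⟩
    obtain ⟨l, rfl⟩ := h7
    have h8 : r ^ (4 : ℤ) = 1 := QR.r_pow_four q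
    have h9 : (r ^ (2 * l + 1)) ^ (2 * l + 1) = r := by
      rw [← zpow_mul, show (2 * l + 1) * (2 * l + 1) = 4 * (l * l + l) + 1 from by ring, zpow_add, zpow_mul, h8,
        one_zpow, one_mul, zpow_one]
    rw [← h9]
    exact zpow_mem hx _
  refine hn ⟨hX, hrX, fun y hy hya => ?_, u, hu, huA⟩
  -- the generator of `X ∩ ⟨a⟩` has order four
  have hc : IsCyclic (X ⊓ Subgroup.zpowers a : Subgroup Ω) := by
    have h3 : IsCyclic ((X ⊓ Subgroup.zpowers a).subgroupOf (Subgroup.zpowers a)) := inferInstance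
    exact isCyclic_of_surjective (Subgroup.subgroupOfEquivOfLe (inf_le_right : X ⊓ Subgroup.zpowers a ≤ _))
      (MulEquiv.surjective _)
  obtain ⟨⟨g, hg⟩, hgen⟩ := hc.exists_generator
  have h4 : ∀ x ∈ X, x ∈ Subgroup.zpowers a → x ∈ Subgroup.zpowers g := by
    intro x hx hxa
    obtain ⟨n, hn⟩ := hgen ⟨x, hx, hxa⟩
    exact ⟨n, by simpa using congrArg Subtype.val hn⟩
  have hfg : f g ∉ Subgroup.zpowers a := by
    intro h7
    obtain ⟨n, hn⟩ := h4 x hx hxa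
    change g ^ n = x at hn
    apply hfx
    rw [← hn, h.zpow hg.1]
    exact zpow_mem h7 n
  have h7 := q.sq_out (hX (h.maps g hg.1)) hfg
  have h8 : g ^ 4 = 1 := by
    have h9 : f (g ^ 4) = f 1 := by
      rw [h.pow hg.1, show f g ^ 4 = (f g * f g) * (f g * f g) from by rw [← pow_two, ← pow_two, ← pow_mul], h7, q.zz, h.one]
    exact h.inj (pow_mem hg.1 4) (one_mem X) h9
  have h9 := QR.mem_zpowers_r q hg.2 h8
  obtain ⟨n, rfl⟩ := h4 y hy hya
  exact zpow_mem h9 n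

end Cfsg.Agent.H745.Q
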